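import Cfsg.Agent.Lib.Bal.Two

/-!
# Local balance for involutory graph automorphisms of orthogonal groups
-/

set_option autoImplicit false

namespace Cfsg.Lib.Bal

open Subgroup Module QuadraticMap Cfsg.Lib.Orth Cfsg.Lib.Orth.Gam

variable {F V A : Type*} [Field F] [AddCommGroup V] [Module F V] {Q : QuadraticForm F V} [Group A]
  {ρ : Gam Q →* A}

/-- Restriction of a semisimilarity to an invariant subspace. -/
noncomputable def gamRes [Finite V] (g : Gam Q) (W : Submodule F V) (h : ∀ w ∈ W, g.T w ∈ W) :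
    Gam (Q.restrict W) where
  σ := g.σ
  c := g.c
  T := AddEquiv.ofBijective (AddMonoidHom.mk' (fun w : W => (⟨g.T w, h w w.2⟩ : W))
    fun _ _ => Subtype.ext (map_add g.T _ _))
    (Finite.injective_iff_bijective.1 fun _ _ e => Subtype.ext (g.T.injective (congrArg Subtype.val e)))
  map_smul a v := Subtype.ext (g.map_smul a v)
  map_Q v := g.map_Q v

theorem gamRes_T [Finite V] (g : Gam Q) (W : Submodule F V) (h : ∀ w ∈ W, g.T w ∈ W) (w : W) :
    ((gamRes g W h).T w : V) = g.T w := rfl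

theorem cj_extR [Finite V] {X Y : Submodule F V} (S : IsOSum Q X Y) {g : Gam Q}
    (hX : ∀ w ∈ X, g.T w ∈ X) (hY : ∀ w ∈ Y, g.T w ∈ Y) (o : O (Q.restrict Y)) :
    cj Q g (S.extR o) = S.extR (cj _ (gamRes g Y hY) o) := eq_cj_of fun v => by
  obtain ⟨w, hw, u, hu, rfl⟩ := S.exists_add v
  rw [map_add, map_add, map_add, map_add, S.extR_left _ hw, S.extR_left _ (hX w hw),
    S.extR_right _ ⟨u, hu⟩]
  exact congrArg _ ((S.extR_right _ ((gamRes g Y hY).T ⟨u, hu⟩)).trans (by rw [cj_apply_T]; rfl))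

theorem map_mem_commutator {G H : Type*} [Group G] [Group H] (f : G →* H) {g : G}
    (h : g ∈ _root_.commutator G) : f g ∈ _root_.commutator H :=
  commutator_mono le_top le_top (map_commutator ⊤ ⊤ f ▸ mem_map_of_mem f h)

theorem conj_eq_of_commute (hρ : ρ.ker = (scal Q).range) {g h : Gam Q} (hc : Commute (ρ h) (ρ g)) :
    ∃ s, h * g * h⁻¹ = scal Q s * g :=
  (hρ.le (show ρ (h * g * h⁻¹ * g⁻¹) = 1 by simp [hc.eq])).imp fun s hs => by simp [hs]

theorem eq_one_of_mul_self (hρ : ρ.ker = (scal Q).range) {h : Gam Q}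
    (hc : (orderOf (ρ h)).Coprime 2) (h2 : h * h ∈ (scal Q).range) : ρ h = 1 :=
  orderOf_eq_one_iff.1 (Nat.eq_one_of_dvd_coprimes hc dvd_rfl (orderOf_dvd_of_pow_eq_one (by
    rw [pow_two, ← map_mul, hρ.ge h2])))

theorem commute_of_odd [Nontrivial V] (hρ : ρ.ker = (scal Q).range) {g : O Q} (hg : g * g = 1)
    {h : Gam Q} (hc : Commute (ρ h) (ρ (ofO Q g))) (ho : (orderOf (ρ h)).Coprime 2) :
    Commute h (ofO Q g) := by
  obtain ⟨s, hs⟩ := conj_eq_of_commute hρ hc
  have h1 : s * s = 1 := scal_injective (Q := Q) (by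
    have := congrArg₂ (· * ·) hs hs
    rwa [conj_mul, scal_mul_ofO_mul, ← map_mul, hg, map_one, mul_one, mul_one, mul_inv_cancel,
      eq_comm, ← map_one (scal Q)] at this)
  obtain ⟨k, hk⟩ := Nat.coprime_two_right.1 ho
  have h2 : Commute (h * h) (ofO Q g) := by
    rw [Commute, SemiconjBy, ← mul_inv_eq_iff_eq_mul, _root_.mul_inv_rev, ← mul_assoc, mul_assoc h h,
      mul_assoc h, hs, ← mul_assoc, mul_scal, mul_assoc (scal Q _), mul_assoc (scal Q _), hs,
      ← mul_assoc, ← map_mul]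
    rcases (Units.inv_eq_self_iff s).1 (inv_eq_of_mul_eq_one_right h1) with rfl | rfl <;> simp
  obtain ⟨t, ht⟩ := hρ.le (show ρ (h ^ (2 * k + 1)) = 1 by rw [map_pow, ← hk, pow_orderOf_eq_one])
  have h3 := commute_scal (ofO_σ g) t
  rw [ht, pow_succ, pow_mul, pow_two] at h3
  simpa using (h2.pow_left k).inv_left.mul_left h3

variable [Finite F] [FiniteDimensional F V] (hQ : ND Q)
include hQ

theorem mem_scal_of_cj (hE : ¬ Exc Q) (h3 : 3 ≤ finrank F V) {g : Gam Q}
    (h : ∀ o ∈ _root_.commutator (O Q), (cj Q g o)⁻¹ * o = 1 ∨ (cj Q g o)⁻¹ * o = O.neg Q) :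
    g ∈ (scal Q).range := (ker_rho hQ hE h3).le (MulEquiv.ext fun o => by
  obtain ⟨o, rfl⟩ := QuotientGroup.mk_surjective o
  rw [rho_mk, MulAut.one_apply, QuotientGroup.eq, mem_center_commutator_iff hQ hE h3]
  exact h o o.2)

theorem commutator_eq_bot_of_one (h : finrank F V = 1) : _root_.commutator (O Q) = ⊥ :=
  (eq_bot_iff_forall _).2 fun o ho => by
    obtain ⟨c, hc, -⟩ := LinearMap.existsUnique_eq_smul_id_of_finrank_eq_one h (o.1 : V →ₗ[F] V)
    have := congrArg Units.val (commutator_le_ker_det ho)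
    rw [O.coe_det, hc, LinearMap.det_smul, h, LinearMap.det_id] at this
    exact O.ext fun v => by simpa [show c = 1 by simpa using this] using LinearMap.congr_fun hc v

theorem pPrimeCore_map_odd (ho : Odd (finrank F V)) {f : O Q →* A} (hf : Function.Injective f) :
    pPrimeCore 2 ((_root_.commutator (O Q)).map f) = ⊥ := by
  have h2 := two_ne_zero_of_odd_finrank hQ ho
  rw [← Core.pPrimeCore_eq_bot_congr (equivMapOfInjective _ f hf)]
  obtain h | h : finrank F V = 1 ∨ 3 ≤ finrank F V := by obtain ⟨k, hk⟩ := ho; omega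
  · rw [commutator_eq_bot_of_one hQ h]; exact Subsingleton.elim _ _
  refine (Core.pPrimeCore_eq_bot_congr ((QuotientGroup.quotientMulEquivOfEq ?_).trans
    QuotientGroup.quotientBot)).1 (pPrimeCore_two_pcom hQ h2 h)
  exact (eq_bot_iff_forall _).2 fun o h' => Subtype.ext (((mem_center_commutator_iff hQ
    (not_exc_of_two_ne_zero h2) h).1 h').resolve_right fun e => Nat.not_even_iff_odd.2 ho
      ((neg_mem_commutator_iff hQ h2).1 (e ▸ o.2)).1)

theorem mem_scal_of_cj_odd (ho : Odd (finrank F V)) {g : Gam Q} (h3 : 3 ≤ finrank F V ∨ g.σ = 1)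
    (h : ∀ o ∈ _root_.commutator (O Q), cj Q g o = o) : g ∈ (scal Q).range := by
  by_cases h4 : 3 ≤ finrank F V
  · exact mem_scal_of_cj hQ (not_exc_of_two_ne_zero (two_ne_zero_of_odd_finrank hQ ho)) h4
      fun o ho => .inl (by rw [h o ho, inv_mul_cancel])
  have h1 : finrank F V = 1 := by obtain ⟨k, hk⟩ := ho; omega
  haveI : Nontrivial V := nontrivial_of_finrank_pos (R := F) (by omega)
  obtain ⟨c, hc, -⟩ := LinearMap.existsUnique_eq_smul_id_of_finrank_eq_one h1
    (g.lin (h3.resolve_left h4) : V →ₗ[F] V)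
  obtain ⟨v, hv⟩ := exists_ne (0 : V)
  exact ⟨Units.mk0 c fun e => hv (g.T_eq_zero.1 (by simpa [e] using LinearMap.congr_fun hc v)),
    ext_T hQ fun v => by simpa using (LinearMap.congr_fun hc v).symm⟩

/-- Involutions with odd-dimensional eigenspaces. -/
theorem good_osum [Finite A] [((ZOm Q).map ρ).Normal] (hρ : ρ.ker = (scal Q).range) {g : O Q}
    (hg : g * g = 1) {X Y : Submodule F V} (S : IsOSum Q X Y) (hX : Odd (finrank F X))
    (hY : Odd (finrank F Y)) (h3 : 3 ≤ finrank F Y) (h1 : ∀ a b, Commute (S.sumMap (a, b)) g)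
    (h2 : ∀ h, Commute h (ofO Q g) → (∀ w ∈ X, h.T w ∈ X) ∧ ∀ w ∈ Y, h.T w ∈ Y)
    (hs : ∀ n ∈ centralizer {ρ (ofO Q g)}, (orderOf n).Coprime 2 → n ∈ ρ.range) :
    Good 2 ((ZOm Q).map ρ) (ρ (ofO Q g)) ∧
      2 ∣ Nat.card ↥((ZOm Q).map ρ ⊓ centralizer {ρ (ofO Q g)}) := by
  haveI : Finite V := finite_of_finiteDimensional F V
  haveI : Nontrivial Y := nontrivial_of_finrank_pos (R := F) (by omega)
  haveI : Nontrivial V := Y.subtype_injective.nontrivial
  have h2F := two_ne_zero_of_odd_finrank (S.nd_right hQ) hY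
  have key : ∀ {X Y : Submodule F V} (S : IsOSum Q X Y), Odd (finrank F X) → Odd (finrank F Y) →
      (∀ a, Commute (S.extR a) g) →
      (∀ h, Commute h (ofO Q g) → (∀ w ∈ X, h.T w ∈ X) ∧ ∀ w ∈ Y, h.T w ∈ Y) → ∃ H : Subgroup A,
      pPrimeCore 2 H = ⊥ ∧ H ≤ (ZOm Q).map ρ ⊓ centralizer {ρ (ofO Q g)} ∧
      (∀ y ∈ (ZOm Q).map ρ ⊓ centralizer {ρ (ofO Q g)}, (orderOf y).Coprime 2 →
        ∀ h ∈ H, y * h * y⁻¹ ∈ H) ∧ (3 ≤ finrank F Y → H ≠ ⊥) ∧
      ∀ h, Commute h (ofO Q g) → (∀ y ∈ H, Commute (ρ h) y) → 3 ≤ finrank F Y ∨ h.σ = 1 →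
        h.σ = 1 ∧ ∃ s : F, s ^ 2 = h.c ∧ ∀ w ∈ Y, h.T w = s • w := fun {X Y} S hX hY h1 h2 => by
    have hi : Function.Injective (ρ.comp ((ofO Q).comp S.extR)) :=
      (injective_iff_map_eq_one _).2 fun o ho => by
        obtain ⟨s, hs⟩ := hρ.le ho
        haveI : Nontrivial X := nontrivial_of_finrank_pos (R := F) hX.pos
        obtain ⟨⟨w, hw⟩, h0⟩ := exists_ne (0 : X)
        have := congrArg (fun g : Gam Q => g.T w) hs
        simp only [scal_T, MonoidHom.comp_apply, ofO_T, S.extR_left _ hw] at this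
        have h1 : s = 1 := Units.ext (smul_left_injective F (fun e => h0 (Subtype.ext e))
          (this.trans (one_smul F w).symm))
        exact S.extR_injective (ofO_injective (by simpa [h1] using hs.symm))
    have hc : ∀ h (hh : Commute h (ofO Q g)) o, ρ h * ρ (ofO Q (S.extR o)) * (ρ h)⁻¹ =
        ρ (ofO Q (S.extR (cj _ (gamRes h Y (h2 h hh).2) o))) := fun h hh o => by
      rw [← cj_extR S (h2 h hh).1, ofO_cj, map_mul, map_mul, map_inv]
    refine ⟨_, pPrimeCore_map_odd (S.nd_right hQ) hY hi, ?_, ?_, fun h e => ?_, fun h hh hc' h3 => ?_⟩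
    · rintro _ ⟨o, ho, rfl⟩
      exact ⟨mem_map_of_mem _ (ofO_mem_ZOm (map_mem_commutator _ ho)),
        mem_centralizer_singleton_iff.2 (((h1 o).map (ofO Q)).map ρ)⟩
    · rintro _ ⟨⟨y, -, rfl⟩, hy⟩ hy' _ ⟨o, ho, rfl⟩
      have hh := commute_of_odd hρ hg (mem_centralizer_singleton_iff.1 hy) hy'
      exact ⟨_, (cj_mem_commutator _).2 ho, (hc y hh o).symm⟩
    · rw [map_eq_bot_iff_of_injective _ hi] at e
      exact center_commutator_ne_top (S.nd_right hQ) (not_exc_of_two_ne_zero h2F) h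
        (by rw [e]; exact Subsingleton.elim _ _)
    obtain ⟨s, hs⟩ := mem_scal_of_cj_odd (S.nd_right hQ) hY (g := gamRes h Y (h2 h hh).2) h3
      fun o ho => hi ((hc h hh o).symm.trans (mul_inv_eq_of_eq_mul (hc' _ ⟨o, ho, rfl⟩)))
    exact ⟨(congrArg Gam.σ hs).symm, s, congrArg (fun g : Gam _ => (g.c : F)) hs, fun w hw =>
      (congrArg (fun g : Gam _ => ((g.T ⟨w, hw⟩ : Y) : V)) hs).symm⟩
  obtain ⟨H, a1, a2, a3, a4, a5⟩ := key S hX hY (h1 1) h2
  obtain ⟨H', b1, b2, b3, -, b5⟩ := key S.symm hY hX (fun a => by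
    convert h1 a 1 using 1
    exact S.ext (fun w hw => (S.symm.extR_right a ⟨w, hw⟩).trans (S.sumMap_left (a, 1) ⟨w, hw⟩).symm)
      fun w hw => (S.symm.extR_left a hw).trans (S.sumMap_right (a, 1) ⟨w, hw⟩).symm)
    fun h hh => (h2 h hh).symm
  haveI := (nontrivial_iff_ne_bot H).2 (a4 h3)
  refine ⟨good_of_family ![H, H'] (Fin.forall_fin_two.2 ⟨a1, b1⟩) (Fin.forall_fin_two.2 ⟨a2, b2⟩)
    (Fin.forall_fin_two.2 ⟨a3, b3⟩)
    fun n hn hc h => ?_, (dvd_card_of_pPrimeCore a1).trans (card_dvd_of_le a2)⟩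
  obtain ⟨n, rfl⟩ := hs n hn hc
  have hh := commute_of_odd hρ hg (mem_centralizer_singleton_iff.1 hn) hc
  obtain ⟨h4, s, hs, h5⟩ := a5 n hh (h 0) (.inl h3)
  obtain ⟨-, t, ht, h6⟩ := b5 n hh (h 1) (.inr h4)
  refine eq_one_of_mul_self hρ hc ⟨n.c, ext_T hQ fun v => ?_⟩
  obtain ⟨w, hw, u, hu, rfl⟩ := S.exists_add v
  rw [mul_T, map_add n.T, h6 w hw, h5 u hu, map_add n.T, map_smul' h4, map_smul' h4, h6 w hw, h5 u hu,
    smul_smul, smul_smul, ← pow_two, ← pow_two, hs, ht, scal_T, smul_add]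

omit [Finite F] hQ in
/-- The module structure over `F(√l)` given by a square root of the scalar `l`. -/
theorem exists_ext {g : Gam Q} (hg : g.σ = 1) {l : Fˣ} (hl : g * g = scal Q l)
    [Fact (∀ r : F, r ^ 2 ≠ l + 0 * r)] : ∃ (_ : Module (QuadraticAlgebra F (l : F) 0) V)
      (_ : IsScalarTower F (QuadraticAlgebra F (l : F) 0) V),
      (∀ (z : QuadraticAlgebra F (l : F) 0) (v : V), z • v = z.re • v + z.im • g.T v) ∧
      finrank F V = 2 * finrank (QuadraticAlgebra F (l : F) 0) V ∧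
      g.det = (-l : F) ^ finrank (QuadraticAlgebra F (l : F) 0) V := by
  let f := QuadraticAlgebra.lift (a := (l : F)) (b := 0) (A := Module.End F V)
    ⟨g.lin hg, LinearMap.ext fun v => by simpa using congrArg (fun g : Gam Q => g.T v) hl⟩
  letI := Module.compHom V f.toRingHom
  have h : ∀ (z : QuadraticAlgebra F (l : F) 0) (v : V), z • v = z.re • v + z.im • g.T v :=
    fun _ _ => rfl
  haveI : IsScalarTower F (QuadraticAlgebra F (l : F) 0) V := ⟨fun a z v => by simp [h, smul_smul]⟩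
  refine ⟨inferInstance, inferInstance, h, ?_, ?_⟩
  · rw [← finrank_mul_finrank F (QuadraticAlgebra F (l : F) 0) V, QuadraticAlgebra.finrank_eq_two]
  · haveI := FiniteDimensional.right F (QuadraticAlgebra F (l : F) 0) V
    rw [det_eq_of hg (e := ((QuadraticAlgebra.omega : QuadraticAlgebra F (l : F) 0) • LinearMap.id :
      V →ₗ[QuadraticAlgebra F (l : F) 0] V).restrictScalars F) (fun v => by simp [h]), LinearMap.det_restrictScalars,
      LinearMap.det_smul, LinearMap.det_id, mul_one, map_pow]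
    exact congrArg (· ^ _) ((QuadraticAlgebra.det_toLinearMap_eq_norm _).trans
      (by simp [QuadraticAlgebra.norm_def]))

/-- Self-adjoint square roots of a non-square scalar. -/
theorem good_ext [Finite A] [((ZOm Q).map ρ).Normal] (hρ : ρ.ker = (scal Q).range)
    (h2 : (2 : F) ≠ 0) {g : Gam Q} (hg : g.σ = 1) {l : Fˣ} (hl : g * g = scal Q l) (hc : g.c = l)
    (hn : ¬ IsSquare (l : F)) (h6 : 6 ≤ finrank F V)
    (hs : ∀ n ∈ centralizer {ρ g}, (orderOf n).Coprime 2 → n ∈ ρ.range) :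
    Good 2 ((ZOm Q).map ρ) (ρ g) ∧ 2 ∣ Nat.card ↥((ZOm Q).map ρ ⊓ centralizer {ρ g}) := by
  haveI : Fact (∀ r : F, r ^ 2 ≠ l + 0 * r) := ⟨fun r h => hn ⟨r, by linear_combination -h⟩⟩
  obtain ⟨_, _, hK, hd, -⟩ := exists_ext hg hl
  haveI : Nontrivial V := nontrivial_of_finrank_pos (R := F) (by omega)
  haveI := FiniteDimensional.right F (QuadraticAlgebra F (l : F) 0) V
  haveI := finite_of_finiteDimensional F (QuadraticAlgebra F (l : F) 0)
  have hl0 := l.ne_zero
  have hgg : ∀ v, g.T (g.T v) = (l : F) • v := fun v => congrArg (fun g : Gam Q => g.T v) hl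
  have hp : ∀ u v, polar Q (g.T u) (g.T v) = l * polar Q u v := fun u v => by
    rw [map_polar, hc, hg]; rfl
  have hsa : ∀ u v, polar Q (g.T u) v = polar Q u (g.T v) := fun u v => mul_left_cancel₀ hl0 (by
    rw [← hp u, hgg, polar_smul_right'])
  have hq : ∀ v, Q (g.T v) = l * Q v := fun v => by rw [map_Q' hg, hc]
  obtain ⟨R, hR, hR'⟩ : ∃ R : QuadraticForm (QuadraticAlgebra F (l : F) 0) V,
      (∀ v, R v = ⟨Q v, (2 * l : F)⁻¹ * polar Q v (g.T v)⟩) ∧
      ∀ u v, polar R u v = ⟨polar Q u v, (l : F)⁻¹ * polar Q u (g.T v)⟩ := by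
    let b : LinearMap.BilinForm (QuadraticAlgebra F (l : F) 0) V := LinearMap.mk₂ _
      (fun u v => ⟨2⁻¹ * polar Q u v, (2 * l : F)⁻¹ * polar Q u (g.T v)⟩)
      (fun _ _ _ => by ext <;> simp [polar_add_left, mul_add])
      (fun _ _ _ => by ext <;> simp [hK, polar_add_left, hsa, hgg] <;> field_simp)
      (fun _ _ _ => by ext <;> simp [polar_add_right, mul_add])
      (fun _ _ _ => by ext <;> simp [hK, polar_add_right, hgg, map_smul' hg] <;> field_simp)
    refine ⟨b.toQuadraticMap, fun v => ?_, fun u v => ?_⟩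
    · ext <;> simp [b, polar_self, ← two_mul, h2]
    · rw [LinearMap.BilinMap.polar_toQuadraticMap]
      ext <;> simp [b, polar_comm Q v, hsa] <;> field_simp <;> ring
  have hnd : ND R := (nd_iff _).2 fun x hx => hQ.eq_zero fun y => by
    simpa [hR'] using congrArg QuadraticAlgebra.re (hx y)
  have h2K : (2 : QuadraticAlgebra F (l : F) 0) ≠ 0 := fun h => h2
    ((algebraMap F (QuadraticAlgebra F (l : F) 0)).injective (by rw [map_ofNat, h, map_zero]))
  have hE := not_exc_of_two_ne_zero (Q := R) h2K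
  let j : O R →* O Q := MonoidHom.mk' (fun o => ⟨o.1.restrictScalars F, fun v => by
    simpa [hR] using congrArg QuadraticAlgebra.re (o.2 v)⟩) fun _ _ => rfl
  let f := ρ.comp ((ofO Q).comp j)
  have hf : ∀ o, f o = 1 ↔ o = 1 ∨ o = O.neg R := fun o => by
    refine (hρ ▸ Iff.rfl : _ ↔ ofO Q (j o) ∈ (scal Q).range).trans ⟨fun ⟨s, hs⟩ => ?_, ?_⟩
    · rcases scal_mul_ofO_inj (s := 1) (t := s) (o' := 1) (by simpa using hs.symm) with h | h
      exacts [.inl (O.ext fun v => congrArg (fun o : O Q => o.1 v) h.2),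
        .inr (O.ext fun v => congrArg (fun o : O Q => o.1 v) h.2)]
    · rintro (rfl | rfl)
      exacts [⟨1, by simp⟩, ⟨-1, ofO_neg.symm⟩]
  have key : ∀ h, ρ h ∈ centralizer {ρ g} → ∃ h' : Gam R, (∀ v, h'.T v = h.T v) ∧
      (h'.c : QuadraticAlgebra F (l : F) 0) = algebraMap F _ h.c ∧
      ∀ o, ρ h * f o * (ρ h)⁻¹ = f (cj R h' o) := fun h hh => by
    obtain ⟨s, hs⟩ := conj_eq_of_commute hρ (mem_centralizer_singleton_iff.1 hh)
    have h1 : ∀ v, h.T (g.T v) = (s : F) • g.T (h.T v) := fun v => by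
      simpa using congrArg (fun g : Gam Q => g.T (h.T v)) hs
    have h3 : h.σ l = s * s * l := by
      obtain ⟨v, hv⟩ := exists_ne (0 : V)
      refine smul_left_injective F (mt h.T_eq_zero.1 hv) ?_
      simp only [← h.map_smul, ← hgg, h1, mul_smul, map_smul' hg]
    have hs0 := s.ne_zero
    let φ : QuadraticAlgebra F (l : F) 0 →+* QuadraticAlgebra F (l : F) 0 :=
      { toFun := fun z => ⟨h.σ z.re, s * h.σ z.im⟩
        map_one' := by ext <;> simp [QuadraticAlgebra.re_one, QuadraticAlgebra.im_one]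
        map_zero' := by ext <;> simp
        map_add' := fun _ _ => by ext <;> simp [mul_add]
        map_mul' := fun _ _ => by ext <;> simp [h3] <;> ring }
    let h' : Gam R := ⟨RingEquiv.ofBijective φ (Finite.injective_iff_bijective.1 φ.injective),
      Units.map (algebraMap F (QuadraticAlgebra F (l : F) 0)).toMonoidHom h.c, h.T,
      fun z v => by simp [φ, hK, h.map_smul, h1, smul_smul, mul_comm], fun v => by
        have := h.map_polar v (g.T v)
        rw [h1, polar_smul_right', ← eq_inv_mul_iff_mul_eq₀ hs0] at this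
        ext <;> simp [φ, hR, h.map_Q, this, h3, map_ofNat]
        field_simp⟩
    exact ⟨h', fun _ => rfl, rfl, fun o => by
      simp only [f, MonoidHom.comp_apply, ← map_inv, ← map_mul, ← ofO_cj]; rfl⟩
  have hker : (f.comp (_root_.commutator (O R)).subtype).ker = center _ := Subgroup.ext fun o =>
    (hf o).trans (mem_center_commutator_iff hnd hE (by omega)).symm
  have a1 := pPrimeCore_range_eq_bot _ hker (pPrimeCore_two_pcom hnd h2K (by omega))
  have a2 : (f.comp (_root_.commutator (O R)).subtype).range ≤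
      (ZOm Q).map ρ ⊓ centralizer {ρ g} := by
    rintro _ ⟨o, rfl⟩
    refine ⟨mem_map_of_mem _ (ofO_mem_ZOm (map_mem_commutator _ o.2)),
      mem_centralizer_singleton_iff.2 (Commute.map (ext_T hQ fun v => ?_) ρ)⟩
    exact (by simpa [hK] using o.1.1.map_smul QuadraticAlgebra.omega v :
      o.1.1 (g.T v) = g.T (o.1.1 v))
  haveI := (nontrivial_iff_ne_bot _).2 fun e => center_commutator_ne_top hnd hE (by omega) (by
    rwa [← hker, MonoidHom.ker_eq_top_iff, ← MonoidHom.range_eq_bot_iff])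
  refine ⟨good_of_subgroup _ a1 a2 ?_ fun n hn' hc h => ?_,
    (dvd_card_of_pPrimeCore a1).trans (card_dvd_of_le a2)⟩
  · rintro _ ⟨⟨y, -, rfl⟩, hy⟩ - _ ⟨o, rfl⟩
    obtain ⟨h', -, -, h1⟩ := key y hy
    exact ⟨⟨_, h'.cj_mem_commutator.2 o.2⟩, (h1 o).symm⟩
  obtain ⟨n, rfl⟩ := hs n hn' hc
  obtain ⟨h', h3, h4, h1⟩ := key n hn'
  obtain ⟨u, rfl⟩ := mem_scal_of_cj hnd hE (by omega) (g := h') fun o ho => (hf _).1 (by
    rw [map_mul, map_inv, ← h1, (h (f o) ⟨⟨o, ho⟩, rfl⟩).eq, mul_inv_cancel_right, inv_mul_cancel])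
  refine eq_one_of_mul_self hρ hc ⟨n.c, ext_T hQ fun v => ?_⟩
  rw [mul_T, ← h3, ← h3, scal_T, scal_T, scal_T, smul_smul, ← algebraMap_smul
    (QuadraticAlgebra F (l : F) 0), ← h4, scal_c, Units.val_pow_eq_pow_val, pow_two]

/-- Involutory graph automorphisms. -/
theorem good_graph [Finite A] [((ZOm Q).map ρ).Normal] (hρ : ρ.ker = (scal Q).range)
    (h2 : (2 : F) ≠ 0) (he : Even (finrank F V)) (h6 : 6 ≤ finrank F V) {g : Gam Q} (hg : g.σ = 1)
    (hd : dl hQ g = -1) (ho : ρ g ^ 2 = 1)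
    (hs : ∀ n ∈ centralizer {ρ g}, (orderOf n).Coprime 2 → n ∈ ρ.range) :
    Good 2 ((ZOm Q).map ρ) (ρ g) ∧ 2 ∣ Nat.card ↥((ZOm Q).map ρ ⊓ centralizer {ρ g}) := by
  haveI : Nontrivial V := nontrivial_of_finrank_pos (R := F) (by omega)
  obtain ⟨l, hl⟩ := hρ.le (show ρ (g * g) = 1 by rw [map_mul, ← pow_two, ho])
  have hc : (g.c : F) = l ∨ (g.c : F) = -l := sq_eq_sq_iff_eq_or_eq_neg.1 (by
    simpa [hg, pow_two] using congrArg (fun g : Gam Q => (g.c : F)) hl.symm)
  obtain ⟨k, hk⟩ := he.two_dvd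
  by_cases hn : IsSquare (l : F)
  swap
  · refine good_ext hQ hρ h2 hg hl.symm (Units.ext (hc.resolve_right fun hc => ?_)) hn h6 hs
    haveI : Fact (∀ r : F, r ^ 2 ≠ l + 0 * r) := ⟨fun r h => hn ⟨r, by linear_combination -h⟩⟩
    obtain ⟨_, _, -, h3, h4⟩ := exists_ext hg hl.symm
    rw [(dl_eq_one_iff hQ h2 h3).2 (hc ▸ h4)] at hd
    exact absurd hd (by decide)
  obtain ⟨s, hs'⟩ := hn
  have hgg : ∀ v, g.T (g.T v) = (s * s) • v := fun v => by
    simpa [hs'] using congrArg (fun g : Gam Q => g.T v) hl.symm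
  have hs0 : s ≠ 0 := by rintro rfl; exact l.ne_zero (by simpa using hs')
  rcases hc with hc | hc
  swap
  · have ts : ∀ t, t * t = s * s → TS Q (End.eigenspace (g.lin hg : V →ₗ[F] V) t) := fun t ht v hv => by
      have := map_Q' hg v
      rw [show g.T v = t • v from End.mem_eigenspace_iff.1 hv, QuadraticMap.map_smul, hc, hs', ht,
        smul_eq_mul] at this
      exact mul_left_cancel₀ (mul_ne_zero h2 (mul_ne_zero hs0 hs0)) (by linear_combination this)
    have h3 := (ts s rfl).two_mul_finrank_le hQ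
    have h4 := ((ts (-s) (by ring)).mono (W' := LinearMap.range ((g.lin hg : V →ₗ[F] V) -
      s • 1)) (by
        rintro _ ⟨v, rfl⟩
        simp [map_smul' hg, hgg, smul_sub, smul_smul, neg_add_eq_sub])).two_mul_finrank_le hQ
    have h5 := LinearMap.finrank_range_add_finrank_ker ((g.lin hg : V →ₗ[F] V) - s • 1)
    rw [← End.eigenspace_def] at h5
    have hU : Lag Q _ := ⟨ts s rfl, by omega⟩
    rw [dl_eq_lsign hQ hU hg, lsign_of_mapSub_eq hQ hU hU (Submodule.eq_of_le_of_finrank_eq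
      (fun v hv => ?_) (finrank_mapSub ..))] at hd
    · exact absurd hd (by decide)
    obtain ⟨u, hu, rfl⟩ := mem_mapSub'.1 hv
    exact (show g.T u = s • u from End.mem_eigenspace_iff.1 hu) ▸ Submodule.smul_mem _ _ hu
  obtain ⟨o, rfl⟩ := exists_eq_scal_mul hg (s := Units.mk0 s hs0) (Units.ext (by simp [hc, hs', pow_two]))
  have ho2 : o * o = 1 := O.ext fun v => smul_right_injective V (mul_ne_zero hs0 hs0) (by
    simpa [smul_smul] using hgg v)
  rw [dl_scal_mul_ofO hQ he, dickson_apply] at hd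
  rw [map_mul, hρ.ge ⟨_, rfl⟩, one_mul] at hs ⊢
  have S := O.isOSum_comm_fix (x := o) (k := 2) (by simpa) (by rw [pow_two, ho2])
  have h3 := S.finrank_add
  have hX : Odd (finrank F (O.comm o)) := Nat.not_even_iff_odd.1 fun h => by
    rw [h.neg_one_pow] at hd; exact absurd hd (by decide)
  have hY : Odd (finrank F (O.fix o)) := by obtain ⟨a, ha⟩ := hX; exact ⟨k - a - 1, by omega⟩
  have hoo : ∀ v, o.1 (o.1 v) = v := fun v => congrArg (fun o : O Q => o.1 v) ho2
  have h4 : ∀ w ∈ O.comm o, o.1 w = -w := fun w hw => by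
    obtain ⟨y, rfl⟩ := O.mem_comm.1 hw; simp [hoo]
  have h5 : ∀ a b, Commute (S.sumMap (a, b)) o := fun a b => S.ext (fun w hw => by
    rw [O.mul_apply, O.mul_apply, h4 w hw, map_neg, S.sumMap_left _ ⟨w, hw⟩, h4 _ (Subtype.prop _)])
    fun w hw => by rw [O.mul_apply, O.mul_apply, O.mem_fix.1 hw, S.sumMap_right _ ⟨w, hw⟩,
      O.mem_fix.1 (Subtype.prop _)]
  have h7 : ∀ h, Commute h (ofO Q o) →
      (∀ w ∈ O.comm o, h.T w ∈ O.comm o) ∧ ∀ w ∈ O.fix o, h.T w ∈ O.fix o := fun h hh => by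
    have : ∀ v, h.T (o.1 v) = o.1 (h.T v) := fun v => congrArg (fun g : Gam Q => g.T v) hh
    exact ⟨fun w hw => by obtain ⟨y, rfl⟩ := O.mem_comm.1 hw; rw [map_sub, this]; exact O.sub_mem_comm _ _,
      fun w hw => O.mem_fix.2 (by rw [← this, O.mem_fix.1 hw])⟩
  by_cases h8 : 3 ≤ finrank F (O.fix o)
  · exact good_osum hQ hρ ho2 S hX hY h8 h5 h7 hs
  refine good_osum hQ hρ ho2 S.symm hY hX (by omega) (fun a b => ?_) (fun h hh => (h7 h hh).symm) hs
  convert h5 b a using 1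
  exact S.ext (fun w hw => (S.symm.sumMap_right _ ⟨w, hw⟩).trans (S.sumMap_left (b, a) ⟨w, hw⟩).symm)
    fun w hw => (S.symm.sumMap_left _ ⟨w, hw⟩).trans (S.sumMap_right (b, a) ⟨w, hw⟩).symm

omit hQ in
/-- The local balance criterion for automorphisms induced by class-swapping similarities. -/
theorem core_iff_graph {ι : Type} [Fintype ι] [DecidableEq ι] {Q : QuadraticForm F (ι → F)}
    (hQ : ND Q) (he : Even (finrank F (ι → F))) (h6 : 6 ≤ Fintype.card ι)
    {A : Subgroup (MulAut (POmega F ⇑Q))} (hA : ∀ k, MulAut.conj k ∈ A) {p : ℕ} [hp : Fact p.Prime]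
    (hpF : (p : F) ≠ 0) {g : Gam Q} (hg : g.σ = 1) (hd : dl hQ g ≠ 1) (ho : orderOf (rhoM Q g) = p)
    (hs : p = 2 → ∀ n ∈ centralizer {rhoM Q g}, (orderOf n).Coprime 2 → n ∈ (rhoM Q).range)
    (P : Prop) : pPrimeCore p ↥(A ⊓ centralizer {rhoM Q g}) ≠ ⊥ ↔ P ∧ p.Coprime
      (Nat.card (MonoidHom.eqLocus (rhoM Q g).toMonoidHom (MonoidHom.id _))) := by
  have hρ := ker_rhoM hQ (not_exc_of_five_le (by simp; omega)) (by omega)
  replace hd := (Int.units_eq_one_or _).resolve_left hd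
  obtain ⟨s, hs'⟩ : g ^ p ∈ (scal Q).range := by
    rw [← hρ, MonoidHom.mem_ker, map_pow, ← ho, pow_orderOf_eq_one]
  obtain rfl : p = 2 := hp.out.eq_two_or_odd'.resolve_right fun h => by
    have := map_pow (delta hQ he) ⟨g, hg⟩ p
    rw [delta_apply, delta_apply, hd, h.neg_one_pow, SubgroupClass.coe_pow, ← hs',
      dl_scal hQ he] at this
    exact absurd this (by decide)
  have hi : (MulAut.conj : _ →* _).range = (ZOm Q).map (rhoM Q) := inn_eq
  haveI : ((ZOm Q).map (rhoM Q)).Normal := hi ▸ inferInstance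
  obtain ⟨h1, h2⟩ := good_graph hQ hρ (by exact_mod_cast hpF) he (by simpa) hg hd
    (ho ▸ pow_orderOf_eq_one _) (hs rfl)
  rw [← hi] at h1 h2
  have := core_iff_of_good (center_pomega hQ (by omega)) hA h2 h1 1 P
  rwa [inv_one, mul_one, one_mul] at this

end Cfsg.Lib.Bal
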