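import Cfsg.Agent.Lib.Bal.Lin
import Cfsg.Agent.Lib.Unitary.GraphU
import Cfsg.Agent.Lib.Unitary.U3

/-!
# Local balance for the outer automorphisms of `PSU`
-/

set_option autoImplicit false

namespace Cfsg.Lib.Bal

open Subgroup Cfsg.Lib.Linear Matrix Module Cfsg.Lib.Orth Cfsg.Lib.Orth.Gam
open scoped MatrixGroups

theorem exists_restrict {F K : Type*} [Field F] [Finite F] [Field K] {φ : K →+* F} {s : F → F}
    (hφ : ∀ x, s x = x ↔ x ∈ φ.range) {ρ : F ≃+* F} (h : ∀ x, s (ρ x) = ρ (s x)) :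
    ∃ ρ₀ : K ≃+* K, ∀ a, φ (ρ₀ a) = ρ (φ a) := by
  choose f hf using fun a => (hφ (ρ (φ a))).1 (by rw [h, (hφ _).2 ⟨a, rfl⟩])
  haveI : Finite K := .of_injective φ φ.injective
  let g : K →+* K :=
    { toFun := f
      map_one' := φ.injective (by simp [hf])
      map_mul' := fun a b => φ.injective (by simp [hf])
      map_zero' := φ.injective (by simp [hf])
      map_add' := fun a b => φ.injective (by simp [hf]) }
  exact ⟨.ofBijective g (Finite.injective_iff_bijective.1 g.injective), hf⟩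

section Dat

variable {ι : Type} [Fintype ι] [DecidableEq ι] {K : Type*} [Field K]

/-- A group of isometries of the form of `M` detecting local balance at the prime `2`. -/
structure Dat {L : Type*} [Group L] (M : GL ι K) (j : L →* GL ι K) : Prop where
  ker : (innDiag.comp j).ker = center L
  ne : center L ≠ ⊤
  core : pPrimeCore 2 (L ⧸ center L) = ⊥
  det : ∀ l, GeneralLinearGroup.det (j l) = 1
  iso : ∀ l u v, frm M ((j l).1 *ᵥ u) ((j l).1 *ᵥ v) = frm M u v
  nrm : ∀ (k : GL ι K) (c : Kˣ), (∀ u v, frm M (k.1 *ᵥ u) (k.1 *ᵥ v) = c * frm M u v) →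
    ∀ l, ∃ l', j l' = k * j l * k⁻¹
  cent : ∀ (k : GL ι K) (τ : K ≃+* K) (c : Kˣ),
    (∀ u v, frm M (k.1 *ᵥ (τ ∘ u)) (k.1 *ᵥ (τ ∘ v)) = c * τ (frm M u v)) →
    (∀ l, Commute (innDiag k * fieldAut τ) (innDiag (j l))) → innDiag k * fieldAut τ = 1

variable [Finite K] (h2 : (2 : K) ≠ 0) (h3 : 3 ≤ Fintype.card ι) {M : GL ι K}
include h2 h3

theorem exists_dat_alt (hM : (frm M).IsAlt) : ∃ j : Symp.isom (frm M) →* GL ι K, Dat M j := by
  obtain ⟨r, hr⟩ := CharP.exists K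
  haveI : Fact r.Prime := ⟨CharP.char_is_prime K r⟩
  haveI : Nontrivial ι := Fintype.one_lt_card_iff_nontrivial.1 (by omega)
  let j : Symp.isom (frm M) →* GL ι K :=
    ((Unitary.glEquiv ι K).symm : _ →* _).comp (Subgroup.subtype _)
  have hj : ∀ l v, (j l).1 *ᵥ v = l.1 v := fun l => Unitary.glEquiv_symm_mulVec l.1
  have ht : ∀ v c, Symp.tv hM v c ^ r = 1 := fun v c => by
    have : ∀ k : ℕ, Symp.tv hM v c ^ k = Symp.tv hM v (k * c) := fun k => by
      induction k with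
      | zero => simp
      | succ k ih => rw [pow_succ, ih, Symp.tv_mul]; congr 1; push_cast; ring
    simp [this]
  have hG : closure {g : Symp.isom (frm M) | g ^ r = 1} = ⊤ :=
    Symp.eq_top_of_tv_mem hM (nd_frm M) _ fun v c => subset_closure (ht v c)
  obtain ⟨v, hv⟩ := exists_ne (0 : ι → K)
  haveI : Finite (Symp.isom (frm M)) :=
    .of_injective j ((Unitary.glEquiv ι K).symm.injective.comp Subtype.val_injective)
  refine ⟨j, Subgroup.ext fun l => ?_,
    fun h => one_ne_zero ((Symp.tv_mem_center_iff hM (nd_frm M) hv 1).1 (h.ge (mem_top _))),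
    pPrimeCore_quotient_center ((Nat.coprime_primes Nat.prime_two Fact.out).2 fun e =>
      h2 (by subst e; exact CharP.cast_eq_zero K 2)) hG
      (fun N _ => Symp.normal_isom_le_center_or hM (nd_frm M) N) ?_,
    fun l => Units.ext (eq_one_of_pow_char_eq_one (p := r) (congrArg
      Units.val (map_eq_one_of_gen hG (GeneralLinearGroup.det.comp j) l))),
    fun l u v => by simp only [hj]; exact l.2 u v, fun g c hc l => ?_, fun g τ c _ h => ?_⟩
  · rw [MonoidHom.mem_ker, MonoidHom.comp_apply, ← MonoidHom.mem_ker, ker_innDiag,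
      ← Symp.scalars_eq_center, mem_scalars]
    refine ⟨fun ⟨c, hc⟩ => Symp.mem_center_of_scalar _ c fun v => hj l v ▸ hc v, fun h => ?_⟩
    rcases (Symp.mem_center_iff hM (nd_frm M) l).1 h with rfl | rfl
    exacts [⟨1, by simp⟩, ⟨-1, by simp [hj]⟩]
  · exact (orderOf_eq_prime (p := 2) (x := Symp.negOne (frm M)) (Subtype.ext (by ext; simp [pow_two]))
      (mt Symp.negOne_eq_one_iff.1 h2)) ▸ orderOf_dvd_natCard _
  · refine ⟨⟨Unitary.glEquiv ι K (g * j l * g⁻¹), fun u v => ?_⟩, by simp [j]⟩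
    obtain ⟨u, rfl⟩ := (Unitary.glEquiv ι K g).surjective u
    obtain ⟨v, rfl⟩ := (Unitary.glEquiv ι K g).surjective v
    simp only [Unitary.glEquiv_apply, mulVec_mulVec, ← Units.val_mul, inv_mul_cancel_right]
    simp only [Units.val_mul, ← mulVec_mulVec, hc, hj]
    rw [l.2]
  obtain ⟨⟨u, rfl⟩, h4⟩ := scalar_of_fix_rat (φ := RingHom.id K) (σ := (τ : K →+* K)) (g := g)
    fun v hv => by
      obtain ⟨x, hx⟩ := Symp.exists_bilin_eq_one (nd_frm M) hv
      have := congrArg (fun t : GL ι K => t.1 *ᵥ (τ ∘ x)) (eq_of_commute (r := r)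
        (by rw [← map_pow, ht, map_one]) (h (Symp.tv hM v 1)))
      simp only [Units.val_mul, ← mulVec_mulVec, fieldGL_mulVec, hj, Symp.tv_apply, hx] at this
      rw [show τ ∘ (x + ((1 : K) * 1) • v) = τ ∘ x + τ ∘ v by ext; simp, mulVec_add,
        add_right_inj] at this
      exact ⟨_, this⟩
  rw [innDiag_scalar, show τ = 1 from RingEquiv.ext h4, map_one, one_mul]

theorem exists_dat_symm (hM : (frm M).IsSymm) :
    ∃ j : _root_.commutator (O (frm M).toQuadraticMap) →* GL ι K, Dat M j := by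
  haveI : Nontrivial ι := Fintype.one_lt_card_iff_nontrivial.1 (by omega)
  have hQ := nd_frm_quad h2 hM
  have hE := not_exc_of_two_ne_zero (Q := (frm M).toQuadraticMap) h2
  have h3' : 3 ≤ finrank K (ι → K) := by simpa
  let ρ : Gam (frm M).toQuadraticMap →* MulAut (ProjectiveSpecialLinearGroup ι K) :=
    MonoidHom.mk' (fun g => innDiag g.mat * fieldAut g.σ) fun g h => by
      rw [mat_mul, mul_σ, map_mul, map_mul, mul_assoc, mul_assoc, ← mul_assoc (fieldAut g.σ),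
        fieldAut_mul_innDiag, mul_assoc]
  have hs : ∀ s, (scal (frm M).toQuadraticMap s).mat = GeneralLinearGroup.scalar ι s := fun s =>
    mat_eq_of fun v => (scalar_mulVec s v).symm
  have hρ : ρ.ker = (scal _).range := Subgroup.ext fun g => ⟨fun h => by
    obtain ⟨h1, h4⟩ := innDiag_mul_fieldAut_eq_one h
    obtain ⟨s, e⟩ := Symp.scalars_eq_center.ge h1
    exact ⟨s, ext_T hQ fun v => by rw [T_eq_mat' h4, ← e]; exact (scalar_mulVec s v).symm⟩, by
      rintro ⟨s, rfl⟩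
      change innDiag (scal _ s).mat * fieldAut 1 = 1
      rw [hs, innDiag_scalar, map_one, mul_one]⟩
  let j : _root_.commutator (O (frm M).toQuadraticMap) →* GL ι K := (Subgroup.subtype _).comp
    ((isoEquiv (frm M).toQuadraticMap).symm.toMonoidHom.comp (Subgroup.subtype _))
  have hj : ∀ l, omHom ρ l = innDiag (j l) := fun l => by
    obtain ⟨o, ho⟩ := (isoEquiv _).surjective l.1
    change innDiag (ofO _ l.1).mat * fieldAut 1 = innDiag ((isoEquiv _).symm l.1).1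
    rw [← ho, mat_ofO, map_one, mul_one, MulEquiv.symm_apply_apply]
  refine ⟨j, by rw [← ker_omHom hQ hE h3' hρ]; exact congrArg _ (MonoidHom.ext fun l => (hj l).symm),
    center_commutator_ne_top hQ hE h3', pPrimeCore_two_pcom hQ h2 h3', fun l => ?_, fun l u v => ?_,
    fun g c hc l => ?_, fun g τ c hc h => ?_⟩
  · have := commutator_le_ker_det l.2
    rw [← (isoEquiv _).apply_symm_apply l.1, MonoidHom.mem_ker, det_isoEquiv] at this
    exact this
  · refine mul_left_cancel₀ h2 ?_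
    rw [← polar_toQuadraticMap_of_symm hM, ← polar_toQuadraticMap_of_symm hM, ← O.map_polar l.1 u v,
      ← isoEquiv_symm_mulVec, ← isoEquiv_symm_mulVec]
    rfl
  · let γ : Gam (frm M).toQuadraticMap := ofPair g 1 c fun v => hc v v
    refine ⟨⟨cj _ γ l, γ.cj_mem_commutator.2 l.2⟩, ?_⟩
    have := γ.coe_symm_cj ((isoEquiv _).symm l.1)
    rw [MulEquiv.apply_symm_apply, show γ.mat = g from mat_ofPair .., show γ.σ = 1 from rfl,
      map_one] at this
    exact this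
  have e : ρ (ofPair g τ c fun v => hc v v) = innDiag g * fieldAut τ :=
    congrArg (innDiag · * _) (mat_ofPair ..)
  exact e ▸ eq_one_of_commute_omHom hQ hE h3' hρ fun o => by rw [e, hj]; exact h o

end Dat

section Graph

open Cfsg.Lib.Unitary (IsBar IsGr diagAut fieldGU)

variable {F : Type*} [Field F] {q n : ℕ} {σ : F →+* F} {τ : F ≃+* F} {K : Type*} [Field K]
  {φ : K →+* F} {γ : MulAut (PSU n F q)} {P : GL (Fin n) F} {M : GL (Fin n) K} {δ : F}

theorem diagAut_eq_one_iff (hσ : IsBar q σ) (hn : 2 ≤ n) {x : GU n F q} :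
    diagAut x = 1 ↔ x.1 ∈ center (GL (Fin n) F) := by
  haveI := hσ.finite
  letI := Fintype.ofFinite F
  have hF : Fintype.card F = q ^ 2 := by rw [← hσ.card, Nat.card_eq_fintype_card]
  rw [← MonoidHom.mem_ker, Unitary.ker_diagAut hF hn]
  refine ⟨fun h => ?_, fun h => mem_center_iff.2 fun y => Subtype.ext (mem_center_iff.1 h y)⟩
  obtain ⟨c, hc⟩ := (Unitary.mem_center_GU hF hn).1 h
  exact mem_center_iff.2 fun y => Units.ext (by simp [hc])

theorem isGr_field (hσ : IsBar q σ) (h1 : IsGr σ τ φ γ P M δ) {ρ : F ≃+* F} {ρ₀ : K ≃+* K}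
    (h : ∀ a, φ (ρ₀ a) = ρ (φ a)) :
    IsGr σ τ φ (Unitary.fieldAut ρ * γ * (Unitary.fieldAut ρ)⁻¹) (fieldGL ρ P) (fieldGL ρ₀ M)
      (ρ δ) := by
  haveI := hσ.finite
  have hρ : ∀ a, σ (ρ a) = ρ (σ a) := fun a => by rw [hσ.eq, hσ.eq, map_pow]
  have e : (fieldGL ρ P).1.map σ = (P.1.map σ).map (ρ : F →+* F) := by
    ext i j; exact hρ _
  have e' : (fieldGL ρ P).1 = P.1.map (ρ : F →+* F) := rfl
  refine ⟨by simpa using h1.ne, ?_, ?_⟩
  · rw [e, e', ← transpose_map, ← Matrix.map_mul, h1.gram, Unitary.map_smul_mat]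
    congr 1
    ext i j; exact (h _).symm
  obtain ⟨g, l, hl, rfl, hg⟩ := h1.eq
  refine ⟨fieldGU ρ g, ρ l, by simpa using hl, ?_, ?_⟩
  · rw [← mul_assoc, Unitary.fieldAut_mul_diagAut, mul_assoc, mul_assoc, ← map_inv, ← map_mul,
      ← map_mul, mul_comm' τ, mul_inv_cancel_left]
  · rw [e, e', show (fieldGU ρ g).1.1 = g.1.1.map (ρ : F →+* F) from rfl, ← Matrix.map_mul, hg,
      Unitary.map_smul_mat]
    rfl

theorem exists_of_mem_centralizer (hσ : IsBar q σ) (hτ : ∀ a, τ a = σ a)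
    (hφ : ∀ x, σ x = x ↔ x ∈ φ.range) (hn : 2 ≤ n) (h1 : IsGr σ τ φ γ P M δ) {g : GU n F q}
    {ρ : F ≃+* F} {ρ₀ : K ≃+* K} (h : ∀ a, φ (ρ₀ a) = ρ (φ a))
    (hg : diagAut g * Unitary.fieldAut ρ ∈ centralizer {γ}) : ∃ (k : GL (Fin n) K) (c : Kˣ) (a : Fˣ),
      (∀ u v, frm M (k.1 *ᵥ (ρ₀ ∘ u)) (k.1 *ᵥ (ρ₀ ∘ v)) = c * ρ₀ (frm M u v)) ∧
      g.1 * fieldGL ρ P = GeneralLinearGroup.scalar _ a * (P * GeneralLinearGroup.map φ k) := by
  have h2 := isGr_field hσ h1 h
  obtain ⟨k, a, ha, e⟩ := (h2.conj_iff hσ hτ hφ hn h1 (h := g)).1 (by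
    rw [← mul_assoc, ← mul_assoc, mul_assoc _ _ (diagAut g)⁻¹, ← _root_.mul_inv_rev,
      mem_centralizer_singleton_iff.1 hg, mul_inv_cancel_right])
  obtain ⟨c, -, hc⟩ := h2.sim_of hσ hφ (by omega) h1 ha e
  refine ⟨k, c, Units.mk0 a ha, fun u v => (frm_sim_iff.2 hc _ _).trans ?_, Units.ext ?_⟩
  · rw [toBilin'_apply', toBilin'_apply', fieldGL_mulVec]
    simp [dotProduct]
  · rw [Units.val_mul, e]
    simp [GeneralLinearGroup.coe_scalar, ← smul_one_eq_diagonal]

theorem conj_diagAut (g x : GU n F q) (ρ : F ≃+* F) :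
    diagAut g * Unitary.fieldAut ρ * diagAut x * (diagAut g * Unitary.fieldAut ρ)⁻¹ =
      diagAut (g * fieldGU ρ x * g⁻¹) := by
  rw [map_mul, map_mul, map_inv, ← Unitary.fieldAut_conj_diagAut]; group

theorem core_iff_isGr (hσ : IsBar q σ) (hτ : ∀ a, τ a = σ a) (hφ : ∀ x, σ x = x ↔ x ∈ φ.range)
    (hn : 3 ≤ n) (h32 : ¬ (n = 3 ∧ q = 2)) (hZ : center (PSU n F q) = ⊥)
    {A : Subgroup (MulAut (PSU n F q))} (hA : ∀ k, MulAut.conj k ∈ A) (h1 : IsGr σ τ φ γ P M δ)
    {L : Type*} [Group L] {j : L →* GL (Fin n) K} (hj : Dat M j) (R : Prop) :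
    pPrimeCore 2 ↥(A ⊓ centralizer {γ}) ≠ ⊥ ↔ R ∧ (2 : ℕ).Coprime (Nat.card
      (MonoidHom.eqLocus γ.toMonoidHom (MonoidHom.id _))) := by
  haveI := hσ.finite
  letI := Fintype.ofFinite F
  haveI : Nontrivial (Fin n) := Fin.nontrivial_iff_two_le.2 (by omega)
  have hF : Fintype.card F = q ^ 2 := by rw [← hσ.card, Nat.card_eq_fintype_card]
  let J : GL (Fin n) K →* GL (Fin n) F :=
    (MulAut.conj P).toMonoidHom.comp (GeneralLinearGroup.map φ)
  have hJ : ∀ k, J k = P * GeneralLinearGroup.map φ k * P⁻¹ := fun k => rfl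
  have hJc : ∀ k, J k ∈ center (GL (Fin n) F) ↔ k ∈ center (GL (Fin n) K) := fun k =>
    (Unitary.mem_center_equiv (MulAut.conj P)).trans map_GL_mem_center_iff
  have hU : ∀ l, J (j l) ∈ GU n F q := fun l => by
    obtain ⟨x, hx⟩ := h1.exists_unitary hσ hφ h1 (k := j l) (a := 1) (c := 1) (by simp)
      (frm_sim_iff.1 fun u v => by rw [hj.iso, one_mul])
    rw [hJ, show P * GeneralLinearGroup.map φ (j l) = x.1 * P from Units.ext (by simpa using hx.symm),
      mul_inv_cancel_right]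
    exact x.2
  let jU : L →* GU n F q := (J.comp j).codRestrict _ hU
  have key : ∀ {g : GU n F q} {ρ : F ≃+* F} {ρ₀ : K ≃+* K} {k : GL (Fin n) K} {a : Fˣ},
      (∀ a, φ (ρ₀ a) = ρ (φ a)) →
      g.1 * fieldGL ρ P = GeneralLinearGroup.scalar _ a * (P * GeneralLinearGroup.map φ k) →
      ∀ l, (g * fieldGU ρ (jU l) * g⁻¹).1 = J (k * fieldGL ρ₀ (j l) * k⁻¹) := by
    intro g ρ ρ₀ k a h e l
    have e1 : fieldGL ρ (GeneralLinearGroup.map φ (j l)) =
        GeneralLinearGroup.map φ (fieldGL ρ₀ (j l)) := Units.ext (by ext; exact (h _).symm)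
    change g.1 * fieldGL ρ (J (j l)) * g.1⁻¹ = _
    rw [hJ, hJ, map_mul, map_mul, map_mul, map_mul, map_inv, map_inv, e1,
      eq_mul_inv_iff_mul_eq.2 e, mul_assoc (GeneralLinearGroup.scalar _ a),
      mul_assoc (GeneralLinearGroup.scalar _ a), GeneralLinearGroup.scalar_commute a,
      GeneralLinearGroup.scalar_commute a]
    group
  have := core_iff_of_hom hZ hA (x := γ) (diagAut.comp jU) (Subgroup.ext fun l => ?_) hj.ne
    (fun l => ⟨?_, ?_⟩) hj.core (fun y hy l => ?_) (fun y hy hy' h => ?_) 1 R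
  · rwa [one_mul, inv_one, mul_one] at this
  · rw [MonoidHom.mem_ker, MonoidHom.comp_apply, diagAut_eq_one_iff hσ (by omega), ← hj.ker,
      MonoidHom.mem_ker, MonoidHom.comp_apply, ← MonoidHom.mem_ker, ker_innDiag]
    exact hJc _
  · refine (Unitary.diagAut_mem_inn_iff hF (by omega)).2 (mem_sup_left ?_)
    rw [Unitary.range_suToGU]
    change GeneralLinearGroup.det (J (j l)) = 1
    rw [hJ, map_mul, map_mul, map_inv, mul_inv_cancel_comm]
    exact Units.ext ((φ.map_det (j l).1).symm.trans (by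
      rw [← GeneralLinearGroup.val_det_apply, hj.det]; simp))
  · exact (h1.mem_comap hσ hτ hφ (by omega) (h := jU l)).2 ⟨j l, 1, one_ne_zero, by
      rw [one_smul, ← Units.val_mul]
      exact congrArg Units.val (inv_mul_cancel_right (P * GeneralLinearGroup.map φ (j l)) P)⟩
  · obtain ⟨g, rfl⟩ := Unitary.inn_le_range_diagAut hy.1
    obtain ⟨k, c, a, hc, e⟩ := exists_of_mem_centralizer hσ hτ hφ (by omega) h1 (g := g) (ρ := 1)
      (ρ₀ := 1) (fun _ => rfl) (by simpa using hy.2)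
    obtain ⟨l', hl⟩ := hj.nrm k c hc l
    have := key (ρ₀ := 1) (fun _ => rfl) e l
    rw [map_one, map_one, MulAut.one_apply, MulAut.one_apply, ← hl] at this
    exact ⟨l', by rw [MonoidHom.comp_apply, MonoidHom.comp_apply, ← map_inv, ← map_mul, ← map_mul]
                  exact congrArg _ (Subtype.ext this.symm)⟩
  obtain ⟨g, ρ, rfl⟩ := Unitary.aut_PSU_decomp hF hn h32 y
  obtain ⟨ρ₀, h0⟩ := exists_restrict hφ (ρ := ρ) fun a => by rw [hσ.eq, hσ.eq, map_pow]
  obtain ⟨k, c, a, hc, e⟩ := exists_of_mem_centralizer hσ hτ hφ (by omega) h1 h0 hy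
  obtain ⟨h3, rfl⟩ := innDiag_mul_fieldAut_eq_one (hj.cent k ρ₀ c hc fun l => by
    have h4 := conj_diagAut g (jU l) ρ
    rw [show _ * diagAut (jU l) = _ from (h l).eq, mul_inv_cancel_right, eq_comm, ← mul_inv_eq_one,
      MonoidHom.comp_apply, ← map_inv,
      ← map_mul, diagAut_eq_one_iff hσ (by omega), coe_mul, key h0 e] at h4
    have h5 := (hJc (k * fieldGL ρ₀ (j l) * k⁻¹ * (j l)⁻¹)).1 (by rwa [map_mul, map_inv])
    rw [← ker_innDiag, MonoidHom.mem_ker, map_mul, map_mul, map_mul, map_inv, map_inv,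
      mul_inv_eq_one, mul_inv_eq_iff_eq_mul] at h5
    rw [Commute, SemiconjBy, mul_assoc, fieldAut_mul_innDiag, ← mul_assoc, h5, mul_assoc])
  obtain ⟨θ, h4, h5⟩ := Unitary.exists_autType hF hn h32
  obtain rfl : ρ = 1 := by
    have h6 := orderOf_map_dvd θ (diagAut g * Unitary.fieldAut ρ)
    rw [map_mul, h4.ge ⟨g, rfl⟩, h5, one_mul] at h6
    refine orderOf_eq_one_iff.1 (Nat.eq_one_of_dvd_coprimes hy' h6 (orderOf_dvd_of_pow_eq_one ?_))
    rw [← Unitary.orderOf_bar hσ hτ]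
    refine pow_orderOf_eq_one_of_fix fun x hx => ?_
    obtain ⟨x, rfl⟩ := (hφ x).1 (hτ x ▸ hx)
    exact (h0 x).symm
  rw [map_one, mul_one, diagAut_eq_one_iff hσ (by omega)]
  rw [map_one, MulAut.one_apply, ← eq_mul_inv_iff_mul_eq, mul_assoc] at e
  exact e ▸ mul_mem (mem_center_iff.2 fun y => (GeneralLinearGroup.scalar_commute a y).symm)
    ((hJc k).2 h3)

end Graph

section Field

open Cfsg.Lib.Unitary (IsBar diagAut fieldGU mapGU suToGU diagSU fieldSU)

variable {F : Type*} [Field F] {q n r p : ℕ} {σ : F →+* F} [Fact r.Prime] [CharP F r]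
  [hp : Fact p.Prime] (hσ : IsBar q σ) (hn : 3 ≤ n) (hpr : p ≠ r)
include hσ hn hpr

theorem pPrimeCore_PSU (hd : p ∣ Nat.card (SU n F q)) : pPrimeCore p (PSU n F q) = ⊥ := by
  haveI := hσ.finite
  letI := Fintype.ofFinite F
  have hF : Fintype.card F = q ^ 2 := by rw [← hσ.card, Nat.card_eq_fintype_card]
  by_cases h32 : n = 3 ∧ q = 2
  swap
  · haveI := Unitary.isSimpleGroup_PSU hF hn h32
    exact pPrimeCore_eq_bot_of_simple
      (dvd_card_quotient_center (Unitary.commutator_SU hF hn h32) hd)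
  obtain ⟨rfl, rfl⟩ := h32
  obtain rfl : r = 2 := (Nat.prime_dvd_prime_iff_eq Fact.out Nat.prime_two).1 (hσ.prime_dvd)
  obtain rfl : p = 3 := by
    rw [hσ.card_SU_three, show 2 ^ 3 * ((2 ^ 2 - 1) * (2 ^ 3 + 1)) = 2 ^ 3 * 3 ^ 3 by norm_num] at hd
    rcases hp.out.dvd_mul.1 hd with h | h
    · exact absurd ((Nat.prime_dvd_prime_iff_eq hp.out Nat.prime_two).1 (hp.out.dvd_of_dvd_pow h)) hpr
    · exact (Nat.prime_dvd_prime_iff_eq hp.out Nat.prime_three).1 (hp.out.dvd_of_dvd_pow h)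
  have hc : Nat.card (PSU 3 F 2) = 2 ^ 3 * 3 ^ 2 := by
    have := hσ.card_PSU_three
    norm_num at this ⊢
    omega
  refine Core.pPrimeCore_eq_bot_iff.2 fun N hN h => (eq_bot_iff_forall _).2 fun x hx => ?_
  obtain ⟨k, -, hk⟩ := (Nat.dvd_prime_pow Nat.prime_two).1
    ((h.pow_right 2).dvd_of_dvd_mul_right (hc ▸ card_subgroup_dvd_card N))
  by_contra hx1
  haveI : Subsingleton (Sylow 2 (PSU 3 F 2)) := ⟨fun P Q => hσ.sylowTI_PSU 2 P Q x hx1
    ((IsPGroup.of_card hk).le_sylow_of_normal P hx) ((IsPGroup.of_card hk).le_sylow_of_normal Q hx)⟩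
  exact hσ.not_normal_sylow_PSU 2 default (Sylow.normal_of_subsingleton _)

theorem core_iff_fieldAut (h32 : ¬ (n = 3 ∧ q = 2)) (hZ : center (PSU n F q) = ⊥)
    {A : Subgroup (MulAut (PSU n F q))} (hA : ∀ k, MulAut.conj k ∈ A) {τ : F ≃+* F}
    (ho : orderOf τ = p) (hodd : Odd p) (a) {R : Prop} (hR : R) :
    pPrimeCore p ↥(A ⊓ centralizer {a * Unitary.fieldAut τ * a⁻¹}) ≠ ⊥ ↔ R ∧ p.Coprime (Nat.card
      (MonoidHom.eqLocus (a * Unitary.fieldAut τ * a⁻¹).toMonoidHom (MonoidHom.id _))) := by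
  haveI := hσ.finite
  letI := Fintype.ofFinite F
  have hF : Fintype.card F = q ^ 2 := by rw [← hσ.card, Nat.card_eq_fintype_card]
  have hτ : ∀ x, τ x = x ↔ x ∈ (fixField τ).subtype.range := fun x => by simp
  have hres : ∀ ρ : F ≃+* F, ∃ ρ₀ : fixField τ ≃+* fixField τ, ∀ a, (ρ₀ a : F) = ρ a := fun ρ =>
    exists_restrict hτ fun x => RingEquiv.congr_fun (mul_comm' τ ρ) x
  obtain ⟨s, hs⟩ := Unitary.exists_bar_equiv hσ
  obtain ⟨s₀, h0⟩ := hres s
  obtain ⟨q₀, hρ⟩ := Unitary.exists_isBar_of_invol (σ := (s₀ : fixField τ →+* fixField τ))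
    (fun e => by
      have := orderOf_dvd_of_pow_eq_one (pow_orderOf_eq_one_of_fix (σ := τ) (τ := s) fun x hx =>
        (h0 ⟨x, hx⟩).symm.trans (congrArg Subtype.val (RingHom.congr_fun e ⟨x, hx⟩)))
      rw [Unitary.orderOf_bar hσ hs, ho] at this
      exact (Nat.not_even_iff_odd.2 hodd) (even_iff_two_dvd.2 this))
    fun a => Subtype.ext (by simp [h0, hs, hσ.invol])
  have hφ : ∀ a, (fixField τ).subtype ((s₀ : fixField τ →+* fixField τ) a) =
      σ ((fixField τ).subtype a) := fun a => (h0 a).trans (hs a)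
  letI := Fintype.ofFinite (fixField τ)
  have hK : Fintype.card (fixField τ) = q₀ ^ 2 := by rw [← hρ.card, Nat.card_eq_fintype_card]
  let m := mapGU hσ hρ hφ n
  have hC := Unitary.range_inf_centralizer_fieldAut (n := n) hσ hρ hφ hτ (ho ▸ hodd) (by omega)
  have hm : ∀ k, diagAut (m k) = 1 ↔ diagAut k = 1 := fun k => by
    rw [diagAut_eq_one_iff hσ (by omega), diagAut_eq_one_iff hρ (by omega)]
    exact map_GL_mem_center_iff
  let f : SU n (fixField τ) q₀ →* MulAut (PSU n F q) := diagAut.comp (m.comp suToGU)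
  have hker : f.ker = center _ := Subgroup.ext fun l => by
    refine (hm _).trans ?_
    rw [← MonoidHom.mem_ker, Unitary.ker_diagAut hK (by omega), Unitary.mem_center_GU hK (by omega),
      Unitary.mem_center_SU hK (by omega), Unitary.suToGU_coe]
  have hf : f.range ≤ (MulAut.conj : PSU n F q →* _).range ⊓ centralizer {Unitary.fieldAut τ} := by
    rintro _ ⟨l, rfl⟩
    refine ⟨(Unitary.diagAut_mem_inn_iff hF (by omega)).2 (mem_sup_left ?_),
      (hC.ge ⟨_, ⟨_, rfl⟩, rfl⟩).2⟩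
    rw [Unitary.range_suToGU]
    exact Units.ext (((fixField τ).subtype.map_det l.1.1).symm.trans (by simp))
  have key : ∀ (k : GU n (fixField τ) q₀) {ρ : F ≃+* F} {ρ₀ : fixField τ ≃+* fixField τ},
      (∀ a, (ρ₀ a : F) = ρ a) → ∀ l, diagAut (m k) * Unitary.fieldAut ρ * f l *
        (diagAut (m k) * Unitary.fieldAut ρ)⁻¹ = f (diagSU k (fieldSU ρ₀ l)) := by
    intro k ρ ρ₀ h l
    refine (conj_diagAut _ _ _).trans (congrArg diagAut ?_)
    rw [MonoidHom.comp_apply, MonoidHom.comp_apply, Unitary.suToGU_diagSU, map_mul, map_mul, map_inv]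
    congr 2
    exact Subtype.ext (Units.ext (by ext; exact (h _).symm))
  refine core_ne_bot_iff_conj hZ hA a (fun e => ?_) (fun hd => ?_) fun _ => hR
  · refine (hρ.isHerm (ι := Fin n)).center_SUG_ne_top (by simp; omega) (eq_top_iff.2 fun x _ => ?_)
    obtain ⟨x, rfl⟩ := (hρ.suEquiv n).surjective x
    exact (Unitary.mem_center_equiv _).2 (hker.le (mem_bot.1 ((hf.trans e.le) ⟨x, rfl⟩)))
  refine good_of_subgroup _ (pPrimeCore_range_eq_bot _ hker (pPrimeCore_PSU hρ hn hpr ?_)) hf ?_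
    fun y hy hy' h => ?_
  · obtain ⟨e⟩ := Unitary.nonempty_centralizer_fieldAut_equiv (n := n) hσ hρ hφ hτ (ho ▸ hodd)
      (by omega)
    have := hd.trans (card_dvd_of_le (inf_le_inf_right _ Unitary.inn_le_range_diagAut))
    rwa [Nat.card_congr (e.trans (hρ.pguEquiv (by omega))).toEquiv,
      Unitary.card_range_diagAut hK (by omega), ← Unitary.card_center_SU hK (by omega), mul_comm,
      ← card_eq_card_quotient_mul_card_subgroup] at this
  · rintro y hy - _ ⟨l, rfl⟩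
    obtain ⟨_, ⟨k, rfl⟩, rfl⟩ := hC.le ⟨Unitary.inn_le_range_diagAut hy.1, hy.2⟩
    have := key k (ρ := 1) (ρ₀ := 1) (fun _ => rfl) l
    rw [map_one, mul_one] at this
    exact ⟨_, this.symm⟩
  obtain ⟨g, ρ, rfl⟩ := Unitary.aut_PSU_decomp hF hn h32 y
  obtain ⟨ρ₀, h1⟩ := hres ρ
  obtain ⟨_, ⟨k, rfl⟩, hk⟩ := hC.le ⟨⟨g, rfl⟩, (mul_mem_cancel_right
    (mem_centralizer_singleton_iff.2 (Commute.map (mul_comm' ρ τ) _))).1 hy⟩
  rw [← hk] at h hy' ⊢
  obtain ⟨rfl, h4⟩ := Unitary.diagAut_mul_fieldAut_eq_one hK hn (g := k) (τ := ρ₀)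
    (MulEquiv.ext fun l => by
      obtain ⟨l, rfl⟩ := QuotientGroup.mk_surjective l
      rw [MulAut.mul_apply, Unitary.fieldAut_mk, Unitary.diagAut_mk, MulAut.one_apply,
        QuotientGroup.eq, ← hker, MonoidHom.mem_ker, map_mul, map_inv, ← key k h1,
        (h _ ⟨l, rfl⟩).eq, mul_inv_cancel_right, inv_mul_cancel])
  rw [(hm k).2 ((Unitary.ker_diagAut hK (by omega)).ge h4), one_mul] at hy' ⊢
  refine orderOf_eq_one_iff.1 (Nat.eq_one_of_dvd_coprimes hy' dvd_rfl
    (orderOf_dvd_of_pow_eq_one ?_))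
  rw [← map_pow, ← ho, pow_orderOf_eq_one_of_fix fun x hx => (h1 ⟨x, hx⟩).symm, map_one]

end Field

end Cfsg.Lib.Bal
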